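import Cfsg.Agent.ChevTw.D4Max.Long

/-!
Only the trivial element of ³D₄(q) commutes with the long root elements of G₂(q) (owner: helper86).
-/

set_option autoImplicit false
set_option linter.unusedSectionVars false

namespace Cfsg.Agent.ChevTw.D4Max

open Cfsg.Lie Cfsg.Agent.ChevGrp Cfsg.Agent.ChevTw Cfsg.Agent.ChevTw.D4Torus

variable {K : Type*} [Field K] [Fintype K] {q : ℕ} (hq : IsPrimePow q) (hK : Fintype.card K = q ^ 3)

/-- An element commuting with every long root element of the fixed group. -/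
def Cen (c : GL chevD4.Idx K) : Prop :=
  c ∈ twistedD4 K q ∧ ∀ z, MLong hq hK z → Commute c z

variable {hq hK}

theorem Cen.conj {c n : GL chevD4.Idx K} (h : Cen hq hK c) (hn : n ∈ twistedD4 K q)
    (hf : frG hq hK n = n) : Cen hq hK (n * c * n⁻¹) := by
  refine ⟨mul_mem (mul_mem hn h.1) (inv_mem hn), fun z hz => ?_⟩
  have h1 := (Commute.conj_iff n).2 (h.2 _ (hz.conj (inv_mem hn) (by rw [map_inv, hf])))
  rwa [show n * (n⁻¹ * z * n⁻¹⁻¹) * n⁻¹ = z by group] at h1

theorem cartan_add {r s u : ℕ} (hr : r < chevD4.nroots) (hs : s < chevD4.nroots) (hu : u < chevD4.nroots)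
    (h : vec chevD4 (lenD4 K) u = (1 : ℤ) • vec chevD4 (lenD4 K) r + (1 : ℤ) • vec chevD4 (lenD4 K) s)
    {j : ℕ} (hj : j < chevD4.rank) : chevD4.cartan j u = chevD4.cartan j r + chevD4.cartan j s := by
  have hR := rootD4 K
  have e := hR.cartan_vec j hj u hu
  rw [h] at e
  simp only [Pi.add_apply, one_smul, add_mul, Finset.sum_add_distrib, ← hR.cartan_vec j hj r hr,
    ← hR.cartan_vec j hj s hs] at e
  omega

theorem act_cartan_add (K : Type*) [Field K] [Fintype K] {r s u : ℕ} {C : ℤ} (hr : r < chevD4.nroots) (hs : s < chevD4.nroots)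
    (h1 : s ≠ r) (h2 : s ≠ chevD4.neg r) (h : chevD4.commTerms r s = [(u, C, 1, 1)])
    (w : List (Fin chevD4.rank)) {j : ℕ} (hj : j < chevD4.rank) :
    chevD4.cartan j (act chevD4 w u) = chevD4.cartan j (act chevD4 w r) + chevD4.cartan j (act chevD4 w s) := by
  have hR := rootD4 K
  obtain ⟨hu, -, -, hv⟩ := hR.commTerms_vec r hr s hs h1 h2 (u, C, 1, 1) (by rw [h]; simp)
  exact cartan_add (hR.act_lt w hr) (hR.act_lt w hs) (hR.act_lt w hu) (hR.act_lin w hr hs hu (by simpa using hv)) hj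

theorem sum_table : ∀ r < chevD4.nroots,
    (∀ j ∈ [0, 1, 2, 3], chevD4.cartan j r + chevD4.cartan j (twD4.root r) +
      chevD4.cartan j (twD4.root (twD4.root r)) = chevD4.cartan j 22 - chevD4.cartan j 14) →
    r ∈ [18, 13, 12] := by decide +kernel

theorem top_weyl {w : List (Fin chevD4.rank)} (hw : (twistD4 hq hK).Comm w)
    (h14 : act chevD4 w 14 = 14) (h22 : act chevD4 w 22 = 22) :
    ∀ r < chevD4.nroots, act chevD4 w r = r := by
  have hS := rulesD4 K
  have hR := rootD4 K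
  obtain ⟨c1, c2, c3, l1, l2, e1, e2⟩ : chevD4.commTerms 14 18 = [(19, 1, 1, 1)] ∧
      chevD4.commTerms 13 19 = [(21, 1, 1, 1)] ∧ chevD4.commTerms 12 21 = [(22, 1, 1, 1)] ∧
      (∀ r ∈ [18, 13, 12], twD4.root r ∈ [18, 13, 12] ∧ chevD4.IsPosRoot r) ∧
      (chevD4.neg 14 = 9 ∧ chevD4.neg 13 = 10 ∧ chevD4.neg 12 = 11) ∧
      twD4.root 18 = 13 ∧ twD4.root 13 = 12 := by decide +kernel
  obtain ⟨n14, n13, n12⟩ := l2
  have h13 : act chevD4 w 13 = twD4.root (act chevD4 w 18) := by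
    have := hw 18 (by decide)
    change act chevD4 w (twD4.root 18) = twD4.root (act chevD4 w 18) at this
    rwa [e1] at this
  have h12 : act chevD4 w 12 = twD4.root (act chevD4 w 13) := by
    have := hw 13 (by decide)
    change act chevD4 w (twD4.root 13) = twD4.root (act chevD4 w 13) at this
    rwa [e2] at this
  have hsum : act chevD4 w 18 ∈ [18, 13, 12] := by
    refine sum_table _ (hR.act_lt w (by decide)) fun j hj => ?_
    have hj' : j < chevD4.rank := by
      show j < 4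
      simp only [List.mem_cons, List.not_mem_nil, or_false] at hj
      omega
    have a1 := act_cartan_add K (by decide) (by decide) (by omega) (by omega) c1 w hj'
    have a2 := act_cartan_add K (by decide) (by decide) (by omega) (by omega) c2 w hj'
    have a3 := act_cartan_add K (by decide) (by decide) (by omega) (by omega) c3 w hj'
    rw [← h13, ← h12]
    rw [h22] at a3
    rw [h14] at a1
    omega
  refine act_eq_self_of_pos (sysD4 K) hS hR fun r hr => pos_of_support hR Set.univ w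
    (fun i _ => ?_) hr ⟨hr.1, fun i _ hi => absurd (Set.mem_univ i) hi⟩
  have hp := hR.simple_pos i
  have h13' : act chevD4 w 13 ∈ [18, 13, 12] := h13 ▸ (l1 _ hsum).1
  have h12' : act chevD4 w 12 ∈ [18, 13, 12] := h12 ▸ (l1 _ h13').1
  rcases simple_cases i with e | e | e | e <;> rw [e] at hp ⊢
  · exact (l1 _ hsum).2
  · rwa [h14]
  · exact (l1 _ h13').2
  · exact (l1 _ h12').2

theorem x_eq_top {r : ℕ} (hr : r < chevD4.nroots) {A : K} (hA : A ≠ 0)
    (h : xGL chevD4 K r A ∈ NTop K) : r = 22 ∨ r = 23 := by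
  have hR := rootD4 K
  have hp : chevD4.IsPosRoot r := by
    refine (hR.sign r hr).resolve_right fun hn => ?_
    have hv : xGL chevD4 K r A ∈ (sysD4 K).Vbar := (sysD4 K).x_mem_US (show r ∈ negSet chevD4 from hn) A
    have h1 : xGL chevD4 K r A ∈ (sysD4 K).Vbar ⊓ (sysD4 K).Bbar :=
      ⟨hv, (sysD4 K).Ubar_le_Bbar (NTop_le h)⟩
    rw [(sysD4 K).Vbar_inf_Bbar (rulesD4 K) hR, Subgroup.mem_bot] at h1
    have h0 : (sysD4 K).x 23 (0 : K) = 1 := (sysD4 K).x_zero (by decide)
    obtain rfl := (sysD4 K).x_root_inj hR hr (show 23 < chevD4.nroots by decide) hA (u := 0) (h1.trans h0.symm)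
    exact hR.not_pos_and_neg (range_pos 23 (by simp)) hn
  by_contra hne
  push Not at hne
  have hs : UClosed chevD4 (lenD4 K) (htHom chevD4) ({r} : Set ℕ) :=
    hR.posSet_closed.subset_closed (by rintro _ rfl; exact hp) fun a ha b hb hab => absurd (hb.trans ha.symm) hab
  have hx : xGL chevD4 K r A ∈ (sysD4 K).US ({r} : Set ℕ) := (sysD4 K).x_mem_US (Set.mem_singleton r) A
  have h1 : xGL chevD4 K r A ∈ (sysD4 K).US ({r} : Set ℕ) ⊓ (sysD4 K).US {22, 23} := ⟨hx, h⟩
  rw [(sysD4 K).US_inf hR hR.posSet_closed hs top_closed (by rintro _ rfl; exact hp)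
    (by rintro s (rfl | rfl) <;> exact range_pos _ (by simp))] at h1
  have he : ({r} : Set ℕ) ∩ {22, 23} = ∅ := by
    ext s
    simp
    omega
  rw [he] at h1
  have h0 : (sysD4 K).x 22 (0 : K) = 1 := (sysD4 K).x_zero (by decide)
  simp [Sys.US] at h1
  exact hne.1 ((sysD4 K).x_root_inj hR hr (show 22 < chevD4.nroots by decide) hA (u := 0) (h1.trans h0.symm))

/-- A centralising element lies in the Borel group. -/
theorem Cen.borel {c : GL chevD4.Idx K} (h : Cen hq hK c) : c ∈ (sysD4 K).Bbar := by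
  set S := sysD4 K
  set T := twistD4 hq hK
  have hS := rulesD4 K
  have hR := rootD4 K
  obtain ⟨b, hb, w, -, v, hv, rfl⟩ := S.mem_NF hS hR (mem_Gbar hq hK h.1)
  obtain ⟨hwc, -, -⟩ := T.fixed_bruhat hS hR hb hv (sig_fixed hq hK h.1)
  obtain ⟨u, hu, t, hh, rfl⟩ := (S.mem_Bbar hS hR).1 hb
  obtain ⟨a, ha, hwa⟩ := S.conjP_nW hS hR w
  obtain ⟨d, hd, hhd⟩ := S.conjP_Hbar hS hR hh
  have hvU : v ∈ S.Ubar := S.US_mono (fun r hr => hr.1) hv
  have move : ∀ r < chevD4.nroots, ∀ z : K, t * (S.nW w * xGL chevD4 K r z * (S.nW w)⁻¹) * t⁻¹ =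
      xGL chevD4 K (act chevD4 w r) (d (act chevD4 w r) * (a r * z)) := fun r hr z => by
    refine (congrArg (fun g => t * g * t⁻¹) (hwa r hr z)).trans ?_
    exact (hhd _ (hR.act_lt w hr) _).trans (by rw [act_nil]; rfl)
  have hne : ∀ r < chevD4.nroots, d (act chevD4 w r) * (a r * 1) ≠ 0 := fun r hr =>
    mul_ne_zero (right_ne_zero_of_mul_eq_one (hd _ (hR.act_lt w hr)))
      (mul_ne_zero (right_ne_zero_of_mul_eq_one (ha r hr)) one_ne_zero)
  have l22 : (22 : ℕ) < chevD4.nroots := by decide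
  have l23 : (23 : ℕ) < chevD4.nroots := by decide
  -- the highest root
  have e23 := mul_inv_eq_iff_eq_mul.2 (h.2 _ (MLong.root hq hK (r := 23) (by simp) (one_pow q) one_ne_zero)).eq
  rw [show u * t * S.nW w * v * xGL chevD4 K 23 1 * (u * t * S.nW w * v)⁻¹ =
    u * (t * (S.nW w * (v * xGL chevD4 K 23 1 * v⁻¹) * (S.nW w)⁻¹) * t⁻¹) * u⁻¹ by group,
    mul_inv_eq_iff_eq_mul.2 (x23_central hvU (1 : K)).eq, move 23 l23, mul_inv_eq_iff_eq_mul,
    ← (x23_central hu (1 : K)).eq, mul_right_inj] at e23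
  have w23 : act chevD4 w 23 = 23 := S.x_root_inj hR (hR.act_lt w l23) l23 (hne 23 l23) e23
  -- the root next to it
  have e22 := mul_inv_eq_iff_eq_mul.2 (h.2 _ (MLong.root hq hK (r := 22) (by simp) (one_pow q) one_ne_zero)).eq
  obtain ⟨e, he⟩ := conj_mod23 (K := K) (c := (1 : K)) (s := 22) (A := posSet chevD4) (fun r hr => hr)
    (by omega) (fun r hr => tbl22 r hr) hvU
  obtain ⟨f, hf⟩ := conj_mod23 (K := K) (c := (1 : K)) (s := 22) (A := posSet chevD4) (fun r hr => hr)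
    (by omega) (fun r hr => tbl22 r hr) (inv_mem hu)
  rw [inv_inv] at hf
  rw [show u * t * S.nW w * v * xGL chevD4 K 22 1 * (u * t * S.nW w * v)⁻¹ =
    u * (t * (S.nW w * (v * xGL chevD4 K 22 1 * v⁻¹) * (S.nW w)⁻¹) * t⁻¹) * u⁻¹ by group, he,
    show t * (S.nW w * (xGL chevD4 K 22 1 * xGL chevD4 K 23 e) * (S.nW w)⁻¹) * t⁻¹ =
      (t * (S.nW w * xGL chevD4 K 22 1 * (S.nW w)⁻¹) * t⁻¹) *
        (t * (S.nW w * xGL chevD4 K 23 e * (S.nW w)⁻¹) * t⁻¹) by group,
    move 22 l22, move 23 l23, w23] at e22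
  set g := xGL chevD4 K 23 (d 23 * (a 23 * e))
  have hx : xGL chevD4 K (act chevD4 w 22) (d (act chevD4 w 22) * (a 22 * 1)) =
      u⁻¹ * xGL chevD4 K 22 1 * u * g⁻¹ := by
    rw [eq_mul_inv_iff_mul_eq]
    conv_rhs => rw [← e22]
    group
  have hm : xGL chevD4 K (act chevD4 w 22) (d (act chevD4 w 22) * (a 22 * 1)) ∈ NTop K := by
    rw [hx, hf]
    exact mul_mem (mul_mem (top_mem _).1 (top_mem _).2) (inv_mem (top_mem _).2)
  have w22 : act chevD4 w 22 = 22 := (x_eq_top (hR.act_lt w l22) (hne 22 l22) hm).resolve_right fun e' =>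
    absurd (hR.act_inj w l22 l23 (e'.trans w23.symm)) (by omega)
  have w14 : act chevD4 w 14 = 14 := by
    obtain ⟨t14, nr⟩ : chevD4.commTerms 14 22 = [(23, 1, 1, 1)] ∧ chevD4.neg 14 = 9 := by decide +kernel
    have l14 : (14 : ℕ) < chevD4.nroots := by decide
    obtain ⟨-, -, -, hv'⟩ := hR.commTerms_vec 14 l14 22 l22 (by omega) (by omega) (23, 1, 1, 1)
      (by rw [t14]; simp)
    have hv'' : vec chevD4 (lenD4 K) 23 = (1 : ℤ) • vec chevD4 (lenD4 K) 14 + (1 : ℤ) • vec chevD4 (lenD4 K) 22 := by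
      simpa using hv'
    have := hR.act_lin w l14 l22 l23 hv''
    rw [w23, w22, hv'', add_left_inj, one_smul, one_smul] at this
    exact hR.vec_inj _ (hR.act_lt w l14) _ l14 this.symm
  have hfix := top_weyl hwc w14 w22
  obtain rfl := invSet_empty hfix hv
  rw [mul_one]
  exact mul_mem (mul_mem (S.Ubar_le_Bbar hu) (S.Hbar_le_Bbar hh))
    (S.Hbar_le_Bbar (S.nW_mem_Hbar_of_act hS hR fun r hr => by rwa [hfix r hr.1]))

/-- The word of the longest element. -/
def wLong : List (Fin chevD4.rank) :=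
  [⟨0, by decide⟩, ⟨2, by decide⟩, ⟨3, by decide⟩, ⟨1, by decide⟩,
    ⟨0, by decide⟩, ⟨2, by decide⟩, ⟨3, by decide⟩, ⟨1, by decide⟩,
    ⟨0, by decide⟩, ⟨2, by decide⟩, ⟨3, by decide⟩, ⟨1, by decide⟩]

theorem wLong_neg : ∀ r ∈ List.range' 12 12, chevD4.IsNegRoot (act chevD4 wLong r) := by decide +kernel

theorem nW_wLong : (sysD4 K).nW wLong = na K * nb K * (na K * nb K) * (na K * nb K) := by
  simp [Sys.nW, wLong, na, nb, mul_assoc]

/-- A centralising element lies in the torus. -/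
theorem Cen.torus {c : GL chevD4.Idx K} (h : Cen hq hK c) : c ∈ (sysD4 K).Hbar := by
  set S := sysD4 K
  have hS := rulesD4 K
  have hR := rootD4 K
  obtain ⟨u, hu, t, hh, rfl⟩ := (S.mem_Bbar hS hR).1 h.borel
  set n := na K * nb K * (na K * nb K) * (na K * nb K) with hn
  have hab := mul_mem (D4Max.na_mem (K := K) hq hK) (D4Max.nb_mem hq hK)
  have hf : frG hq hK n = n := by simp only [n, map_mul, frG_na, frG_nb]
  have h2 := (h.conj (n := n) (mul_mem (mul_mem hab hab) hab) hf).borel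
  rw [hn, ← nW_wLong] at h2
  set N := S.nW wLong
  have hV : N * u * N⁻¹ ∈ S.Vbar := by
    have : N * u * N⁻¹ ∈ (S.US (posSet chevD4)).map (MulAut.conj N).toMonoidHom :=
      ⟨u, hu, rfl⟩
    rw [S.conj_US hS hR wLong fun r hr => hr.1] at this
    refine S.US_mono ?_ this
    rintro _ ⟨r, hr, rfl⟩
    exact wLong_neg r (pos_range r hr.1 hr)
  have hT : N * t * N⁻¹ ∈ S.Bbar := S.Hbar_le_Bbar (S.nW_conj_Hbar hS hR wLong hh)
  have h3 : N * u * N⁻¹ ∈ S.Vbar ⊓ S.Bbar := ⟨hV, by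
    have := mul_mem h2 (inv_mem hT)
    rwa [show N * (u * t) * N⁻¹ * (N * t * N⁻¹)⁻¹ = N * u * N⁻¹ by group] at this⟩
  rw [S.Vbar_inf_Bbar hS hR, Subgroup.mem_bot, conj_eq_one_iff] at h3
  rw [h3, one_mul]
  exact hh

theorem mid_closed : ∀ r ∈ [19, 16, 15, 17, 20, 21, 22, 23], chevD4.IsPosRoot r ∧
    ∀ s ∈ [19, 16, 15, 17, 20, 21, 22, 23], s = r ∨
      ∀ c ∈ chevD4.commTerms r s, c.1 ∈ [19, 16, 15, 17, 20, 21, 22, 23] := by decide +kernel

theorem triple_cartan : ∀ j ∈ [0, 1, 2, 3], chevD4.cartan j 19 = chevD4.cartan j 14 + chevD4.cartan j 18 ∧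
    chevD4.cartan j 16 = chevD4.cartan j 14 + chevD4.cartan j 13 ∧
    chevD4.cartan j 15 = chevD4.cartan j 14 + chevD4.cartan j 12 := by decide +kernel

theorem chi_add (χ : Fin chevD4.rank → Kˣ) {r s u : ℕ}
    (h : ∀ j ∈ [0, 1, 2, 3], chevD4.cartan j u = chevD4.cartan j r + chevD4.cartan j s) :
    chiD4 K χ u = chiD4 K χ r * chiD4 K χ s := by
  simp only [chiD4, h 0 (by simp), h 1 (by simp), h 2 (by simp), h 3 (by simp), zpow_add]
  simp only [mul_comm, mul_left_comm, mul_assoc]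

/-- Only the identity centralises. -/
theorem Cen.eq_one {c : GL chevD4.Idx K} (h : Cen hq hK c) : c = 1 := by
  set S := sysD4 K
  have hR := rootD4 K
  obtain ⟨χ, rfl⟩ := exists_torD4 h.torus
  have fix : ∀ r ∈ [14, 22, 23], chiD4 K χ r = 1 := by
    intro r hr
    have hr' : r ∈ [14, 22, 23, 0, 1, 9] := by
      simp only [List.mem_cons, List.not_mem_nil, or_false] at hr ⊢
      omega
    have hlt : r < chevD4.nroots := (small_pos r hr).1
    have e := mul_inv_eq_iff_eq_mul.2 (h.2 _ (MLong.root hq hK hr' (one_pow q) one_ne_zero)).eq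
    rw [torD4_conj χ hlt, mul_one] at e
    exact Units.ext (x_param_inj hlt e)
  have h14 := fix 14 (by simp)
  -- the moved long root element
  set z := Y1 q (1 : K) * xGL chevD4 K 14 1 * (Y1 q (1 : K))⁻¹
  have hz : MLong hq hK z := (MLong.root hq hK (by simp) (one_pow q) one_ne_zero).conj (Y1_mem 1)
    (by rw [frG_Y1, one_pow])
  set n := (xGL chevD4 K 14 1 * (S1 q (1 : K) * S2 q (1 : K)))⁻¹ * z with hn
  have hnT : n ∈ NTop K := by
    have := (Y1_conj_eqv (q := q) (t := (1 : K)) (one_pow q) (pow_q_cube hK)).symm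
    simpa [Eqv, n, z] using this
  obtain ⟨f, hf⟩ := S.exists_coef hR top_closed (L := [22, 23]) ⟨by simp, fun r => by simp⟩ hnT
  let tt : ℕ → K := fun r =>
    if r = 19 then -1 else if r = 20 then -1 else if r = 21 then -1 else if r < 22 then 1 else f r
  set L := [19, 16, 15, 17, 20, 21, 22, 23]
  have hP : S1 q (1 : K) * S2 q (1 : K) * n = S.P L tt := by
    rw [hf]
    simp [L, Sys.P, S1, S2, tt, mul_assoc]
    rfl
  have hz' : z = xGL chevD4 K 14 1 * S.P L tt := by rw [← hP, hn]; group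
  have hA : UClosed chevD4 (lenD4 K) (htHom chevD4) {r | r ∈ L} :=
    hR.posSet_closed.subset_closed (fun r hr => (mid_closed r hr).1) fun r hr s hs hne c hc =>
      ((mid_closed r hr).2 s hs).resolve_left hne c hc
  have hlt : ∀ r ∈ L, r < chevD4.nroots := fun r hr => (mid_closed r hr).1.1
  have e : torD4 K χ * z * (torD4 K χ)⁻¹ = z := mul_inv_eq_iff_eq_mul.2 (h.2 _ hz).eq
  have eP := Cfsg.Agent.ChevTwOrd.P_conj (S := S) (h := torD4 K χ) (fun r => (chiD4 K χ r : K)) (L := L)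
    (fun r hr t => torD4_conj χ (hlt r hr) t) tt
  have e14 := torD4_conj χ (show 14 < chevD4.nroots by decide) (1 : K)
  rw [h14, Units.val_one, one_mul] at e14
  rw [hz', show torD4 K χ * (xGL chevD4 K 14 1 * S.P L tt) * (torD4 K χ)⁻¹ =
    (torD4 K χ * xGL chevD4 K 14 1 * (torD4 K χ)⁻¹) * (torD4 K χ * S.P L tt * (torD4 K χ)⁻¹) by group,
    e14, eP, mul_right_inj] at e
  have key := S.coef_unique hR hA ⟨by decide, fun r => Iff.rfl⟩ (congrArg S.θ e)
  have short : ∀ r ∈ [19, 16, 15], chiD4 K χ r = 1 := by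
    intro r hr
    have hr' : r ∈ L := by
      simp only [L, List.mem_cons, List.not_mem_nil, or_false] at hr ⊢
      omega
    refine Units.ext ((mul_eq_right₀ ?_).1 (key r hr'))
    simp only [List.mem_cons, List.not_mem_nil, or_false] at hr
    rcases hr with rfl | rfl | rfl <;> simp [tt]
  have simp3 : chiD4 K χ 18 = 1 ∧ chiD4 K χ 13 = 1 ∧ chiD4 K χ 12 = 1 := by
    refine ⟨?_, ?_, ?_⟩
    · have := chi_add χ (fun j hj => (triple_cartan j hj).1)
      rwa [short 19 (by simp), h14, one_mul, eq_comm] at this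
    · have := chi_add χ (fun j hj => (triple_cartan j hj).2.1)
      rwa [short 16 (by simp), h14, one_mul, eq_comm] at this
    · have := chi_add χ (fun j hj => (triple_cartan j hj).2.2)
      rwa [short 15 (by simp), h14, one_mul, eq_comm] at this
  rw [torD4_eq_one_iff]
  intro k
  rw [prod_cartan]
  rcases simple_cases k with e | e | e | e <;> rw [e]
  exacts [simp3.1, h14, simp3.2.1, simp3.2.2]

end Cfsg.Agent.ChevTw.D4Max
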