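import Cfsg.Agent.ChevTw.D4Max.Long

/-!
The long root elements inside a proper overgroup of G₂(q) in ³D₄(q) (owner: helper86).
-/

set_option autoImplicit false
set_option linter.unusedSectionVars false

namespace Cfsg.Agent.ChevTw.D4Max

open Cfsg.Lie Cfsg.Agent.ChevGrp Cfsg.Agent.ChevTw Cfsg.Agent.ChevTw.D4Torus

variable {K : Type*} [Field K] [Fintype K] {q : ℕ} {hq : IsPrimePow q} {hK : Fintype.card K = q ^ 3}
variable {H : Subgroup (GL chevD4.Idx K)}

theorem commute_of_conj {G : Type*} [Group G] {u a b : G} (h : Commute (u * a * u⁻¹) (u * b * u⁻¹)) :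
    Commute a b := (Commute.conj_iff u).1 h

theorem x_comm_none {r s : ℕ} (hr : r < 24) (hs : s < 24) (h2 : s ≠ chevD4.neg r)
    (h3 : chevD4.commTerms r s = []) (t u : K) :
    Commute (xGL chevD4 K r t) (xGL chevD4 K s u) :=
  mul_inv_eq_iff_eq_mul.1 (conj_x_none hr hs h2 h3 t u)

theorem not_commute_opposite {c s : K} (hc : c ≠ 0) (hs : s ≠ 0)
    (h : Commute (xGL chevD4 K 0 c) (xGL chevD4 K 23 s)) : False := by
  have inj : Function.Injective (phi K) := fun a b e => by
    rw [← psi_sl, ← psi_sl] at e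
    exact Matrix.SpecialLinearGroup.toGL_injective (psi_injective e)
  rw [← phi_lower, ← phi_upper, Commute, SemiconjBy, ← map_mul, ← map_mul] at h
  have e := congrArg (fun g : Matrix.SpecialLinearGroup (Fin 2) K => g.1 0 0) (inj h)
  rw [Matrix.SpecialLinearGroup.coe_mul, Matrix.SpecialLinearGroup.coe_mul] at e
  simp [lower, Chev.RankOne.upper, Matrix.mul_apply, Fin.sum_univ_two] at e
  exact e.elim hs hc

theorem comm_facts : chevD4.neg 23 = 0 ∧ chevD4.neg 22 = 1 ∧ chevD4.neg 14 = 9 ∧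
    chevD4.commTerms 23 1 = [(14, 1, 1, 1)] ∧ chevD4.commTerms 23 14 = [] ∧
    chevD4.commTerms 23 9 = [(22, -1, 1, 1)] ∧ chevD4.commTerms 23 22 = [] ∧
    chevD4.commTerms 22 14 = [(23, -1, 1, 1)] ∧ chevD4.commTerms 22 23 = [] := by decide +kernel

theorem comm_facts' : chevD4.commTerms 22 0 = [(9, 1, 1, 1)] ∧ chevD4.commTerms 22 9 = [] ∧
    chevD4.commTerms 9 22 = [] ∧ chevD4.commTerms 1 14 = [] ∧ chevD4.commTerms 0 9 = [] ∧
    chevD4.neg 9 = 14 ∧ chevD4.neg 1 = 22 ∧ chevD4.neg 0 = 23 := by decide +kernel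

namespace Over

variable (ho : Over hq hK H)
include ho

theorem mlong_mem {y : GL chevD4.Idx K} (h : MLong hq hK y) : y ∈ H :=
  ho.small _ h.fixed.1 h.fixed.2

/-- The long root elements in the conjugates of `x₁₄` by the positive unipotent group. -/
theorem case14 {u : GL chevD4.Idx K} (hu : u ∈ (sysD4 K).Ubar) (hG : u ∈ twistedD4 K q) {c : K}
    (hc : c ^ q = c) (hc0 : c ≠ 0) (h : u * xGL chevD4 K 14 c * u⁻¹ ∈ H) :
    twistedD4 K q ≤ H ∨ MLong hq hK (u * xGL chevD4 K 14 c * u⁻¹) := by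
  obtain ⟨t, e, he, e1⟩ := beta_shape hq hK hu hG hc
  rw [e1] at h ⊢
  by_cases ht : t ^ q = t
  · right
    obtain ⟨-, n22, -, -, -, -, -, t3, t4⟩ := comm_facts
    have hf : (-e / c) ^ q = -e / c := by rw [div_pow, neg_pow_q hq hK, he, hc]
    have h1 := ((MLong.root hq hK (r := 14) (by simp) hc hc0).conj
      (n := xGL chevD4 K 22 (-e / c)) (long_mem hq hK (by simp) hf) (long_fix hq hK hf)).conj
      (n := Y1 q t) (Y1_mem t) (by rw [frG_Y1, ht])
    rw [conj_x (by omega) (by omega) (by omega) (by omega) t3 (by omega) (by omega) (by omega) t4] at h1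
    have e2 : ((-1 : ℤ) : K) * (-e / c) * c = e := by
      push_cast
      field_simp
    rw [e2] at h1
    refine (congrArg (MLong hq hK) ?_).mp h1
    rw [mul_assoc (Y1 q t * xGL chevD4 K 14 c), ((x23_central (Y1_mem_Ubar t) e).inv_left).eq]
    group
  · left
    refine ho.eq_top_of_beta hc hc0 ht ?_
    have := mul_mem h (inv_mem (ho.long (show 23 ∈ [14, 22, 23, 0, 1, 9] by simp) he))
    simpa using this

/-- A long root element of the overgroup commuting with `x₂₃`. -/
theorem centralising {y : GL chevD4.Idx K} (hy : GLong (q := q) y) (hH : y ∈ H) {s : K}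
    (hs0 : s ≠ 0) (h : Commute y (xGL chevD4 K 23 s)) :
    twistedD4 K q ≤ H ∨ MLong hq hK y := by
  obtain ⟨u, hu, hG, r, hr, c, hc, hc0, rfl⟩ := hy.normal_form hq hK
  have hcm : Commute (xGL chevD4 K r c) (xGL chevD4 K 23 s) := by
    refine commute_of_conj (u := u) ?_
    rwa [mul_inv_eq_iff_eq_mul.2 (x23_central hu s).eq]
  obtain ⟨n23, n22, n14, t1, t1', t9, t9', -, -⟩ := comm_facts
  have hne : ∀ (x C : ℕ × ℤ), C.2 = 1 ∨ C.2 = -1 → C.1 < 24 →
      chevD4.commTerms 23 x.1 = [(C.1, C.2, 1, 1)] → x.1 < 24 → x.1 ≠ 23 → x.1 ≠ chevD4.neg 23 →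
      C.1 ≠ 23 → C.1 ≠ chevD4.neg 23 → chevD4.commTerms 23 C.1 = [] → r = x.1 → False := by
    intro x C hC hk h3 hx h1 h2 hk1 hk2 h4 e
    have e1 := conj_x (K := K) (by omega) hx h1 h2 h3 hk hk1 hk2 h4 s c
    rw [← e, mul_inv_eq_iff_eq_mul.2 hcm.symm.eq, eq_comm, mul_eq_left] at e1
    exact hk1 ((sysD4 K).x_root_inj (rootD4 K) (show C.1 < chevD4.nroots from hk) (show 23 < chevD4.nroots by decide)
      (mul_ne_zero (mul_ne_zero (cast_sign_ne hC) hs0) hc0) (u := 0)
      (e1.trans ((sysD4 K).x_zero (show 23 < chevD4.nroots by decide)).symm))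
  simp only [List.mem_cons, List.not_mem_nil, or_false] at hr
  rcases hr with rfl | rfl | rfl | rfl | rfl | rfl
  · exact ho.case14 hu hG hc hc0 hH
  · exact Or.inr (x22_shape hq hK hu hG hc hc0)
  · refine Or.inr ?_
    rw [mul_inv_eq_iff_eq_mul.2 (x23_central hu c).eq]
    exact MLong.root hq hK (by simp) hc hc0
  · exact (not_commute_opposite hc0 hs0 hcm).elim
  · exact (hne (1, 0) (14, 1) (Or.inl rfl) (by omega) t1 (by omega) (by omega) (by omega) (by omega)
      (by omega) t1' rfl).elim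
  · exact (hne (9, 0) (22, -1) (Or.inr rfl) (by omega) t9 (by omega) (by omega) (by omega) (by omega)
      (by omega) t9' rfl).elim

/-- A long root element of the overgroup commuting with a small one. -/
theorem next_to {y z : GL chevD4.Idx K} (hy : GLong (q := q) y) (hH : y ∈ H) (hz : MLong hq hK z)
    (h : Commute y z) : twistedD4 K q ≤ H ∨ MLong hq hK y := by
  obtain ⟨m, hm, hf, s, hs0, -, rfl⟩ := hz
  have hmH := ho.small m hm hf
  have e : m * (m⁻¹ * y * m) * m⁻¹ = y := by group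
  rw [← e] at h
  refine (ho.centralising ?_ (mul_mem (mul_mem (inv_mem hmH) hH) hmH) hs0 (commute_of_conj h)).imp_right
    fun h' => e ▸ h'.conj hm hf
  simpa using hy.conj (inv_mem hm)

/-- Every long root element of a proper overgroup is small. -/
theorem mlong {y : GL chevD4.Idx K} (hy : GLong (q := q) y) (hH : y ∈ H) :
    twistedD4 K q ≤ H ∨ MLong hq hK y := by
  obtain ⟨u, hu, hG, r, hr, c, hc, hc0, rfl⟩ := hy.normal_form hq hK
  obtain ⟨n23, n22, n14, t1, t1', t9, t9', -, t4⟩ := comm_facts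
  obtain ⟨t0, z229, z922, z114, z09, n9, n1, n0⟩ := comm_facts'
  set y := u * xGL chevD4 K r c * u⁻¹
  have h23 := ho.long (show 23 ∈ [14, 22, 23, 0, 1, 9] by simp) (t := (1 : K)) (one_pow q)
  have hu23 : ∀ g : GL chevD4.Idx K,
      xGL chevD4 K 23 1 * (u * g * u⁻¹) * (xGL chevD4 K 23 1)⁻¹ =
        u * (xGL chevD4 K 23 1 * g * (xGL chevD4 K 23 1)⁻¹) * u⁻¹ := fun g => by
    have e := (x23_central hu (1 : K)).eq
    have e' : u⁻¹ * (xGL chevD4 K 23 (1 : K))⁻¹ = (xGL chevD4 K 23 1)⁻¹ * u⁻¹ := by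
      rw [← mul_inv_rev, ← mul_inv_rev, e]
    calc _ = xGL chevD4 K 23 1 * u * g * (u⁻¹ * (xGL chevD4 K 23 1)⁻¹) := by group
      _ = _ := by rw [e', ← e]; group
  simp only [List.mem_cons, List.not_mem_nil, or_false] at hr
  by_cases hcen : r = 14 ∨ r = 22 ∨ r = 23
  · refine ho.centralising hy hH one_ne_zero ?_
    have hx : ∀ r', r' = 14 ∨ r' = 22 ∨ r' = 23 → Commute (xGL chevD4 K r' c) (xGL chevD4 K 23 1) := by
      rintro r' (rfl | rfl | rfl)
      · exact (x_comm_none (by omega) (by omega) (by omega) t1' 1 c).symm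
      · exact x_comm_none (by omega) (by omega) (by omega) t4 c 1
      · exact x23_central ((sysD4 K).x_mem_US (show 23 ∈ posSet chevD4 from range_pos 23 (by simp)) c) 1
    have := (Commute.conj_iff u).2 (hx r hcen)
    rwa [mul_inv_eq_iff_eq_mul.2 (x23_central hu (1 : K)).eq] at this
  rcases hr with rfl | rfl | rfl | rfl | rfl | rfl
  · simp at hcen
  · simp at hcen
  · simp at hcen
  · -- the root opposite to the highest one
    have hX := x22_shape hq hK hu hG (one_pow q) (one_ne_zero (α := K))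
    set X := u * xGL chevD4 K 22 1 * u⁻¹
    set W := u * xGL chevD4 K 9 c * u⁻¹
    have hW : W ∈ H := by
      have e : y⁻¹ * (X * y * X⁻¹) = W := by
        have e1 : X * y * X⁻¹ = u * (xGL chevD4 K 22 1 * xGL chevD4 K 0 c * (xGL chevD4 K 22 1)⁻¹) * u⁻¹ := by
          simp only [X, y]; group
        rw [e1, conj_x (by omega) (by omega) (by omega) (by omega) t0 (by omega) (by omega) (by omega) z229,
          Int.cast_one, one_mul, one_mul]
        simp only [y, W]; group
      rw [← e]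
      exact mul_mem (inv_mem hH) (mul_mem (mul_mem (ho.mlong_mem hX) hH) (inv_mem (ho.mlong_mem hX)))
    have hWg : GLong (q := q) W := (MLong.root hq hK (r := 9) (by simp) hc hc0).gLong.conj hG
    rcases ho.next_to hWg hW hX ((Commute.conj_iff u).2 (x_comm_none (by omega) (by omega) (by omega) z922 c 1))
      with h | h
    · exact Or.inl h
    · exact ho.next_to hy hH h ((Commute.conj_iff u).2 (x_comm_none (by omega) (by omega) (by omega) z09 c c))
  · -- the root -22
    have hk : u * xGL chevD4 K 14 c * u⁻¹ ∈ H := by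
      have e : y⁻¹ * (xGL chevD4 K 23 1 * y * (xGL chevD4 K 23 1)⁻¹) = u * xGL chevD4 K 14 c * u⁻¹ := by
        rw [hu23, conj_x (by omega) (by omega) (by omega) (by omega) t1 (by omega) (by omega) (by omega) t1',
          Int.cast_one, one_mul, one_mul]
        simp only [y]; group
      rw [← e]
      exact mul_mem (inv_mem hH) (mul_mem (mul_mem h23 hH) (inv_mem h23))
    rcases ho.case14 hu hG hc hc0 hk with h | h
    · exact Or.inl h
    · exact ho.next_to hy hH h ((Commute.conj_iff u).2 (x_comm_none (by omega) (by omega) (by omega) z114 c c))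
  · -- the root -14
    have hk : u * xGL chevD4 K 22 (-c) * u⁻¹ ∈ H := by
      have e : y⁻¹ * (xGL chevD4 K 23 1 * y * (xGL chevD4 K 23 1)⁻¹) = u * xGL chevD4 K 22 (-c) * u⁻¹ := by
        rw [hu23, conj_x (by omega) (by omega) (by omega) (by omega) t9 (by omega) (by omega) (by omega) t9']
        simp only [y, Int.cast_neg, Int.cast_one, neg_mul, one_mul]; group
      rw [← e]
      exact mul_mem (inv_mem hH) (mul_mem (mul_mem h23 hH) (inv_mem h23))
    have h := x22_shape hq hK hu hG (c := -c) (by rw [neg_pow_q hq hK, hc]) (neg_ne_zero.2 hc0)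
    exact ho.next_to hy hH h ((Commute.conj_iff u).2 (x_comm_none (by omega) (by omega) (by omega) z922 c (-c)))

end Over

end Cfsg.Agent.ChevTw.D4Max
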