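import Cfsg.Agent.ChevTw.D4Torus.Torus

/-!
A subspace of the cubic extension closed under inversion (owner: helper86).
-/

set_option autoImplicit false

namespace Cfsg.Agent.ChevTw.D4Max

open Cfsg.Lie Cfsg.Agent.ChevTw Cfsg.Agent.ChevTw.D4Torus

variable {K : Type*} [Field K] [Fintype K] {q : ℕ} (hq : IsPrimePow q) (hK : Fintype.card K = q ^ 3)

include hq hK in
theorem eq_univ_of_inv (A : Set K) (h1 : (1 : K) ∈ A) (hadd : ∀ a ∈ A, ∀ b ∈ A, a + b ∈ A)
    (hsc : ∀ c : K, c ^ q = c → ∀ a ∈ A, c * a ∈ A) (hinv : ∀ a ∈ A, a⁻¹ ∈ A)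
    {s : K} (hs : s ∈ A) (hsq : s ^ q ≠ s) (t : K) : t ∈ A := by
  set F := FF hq hK
  haveI : Finite F := inferInstance
  have hfr : Module.finrank F K = 3 := by
    have h := Module.natCard_eq_pow_finrank (K := F) (V := K)
    rw [card_FF hq hK, Nat.card_eq_fintype_card, hK] at h
    exact (Nat.pow_right_injective hq.one_lt h).symm
  have hs0 : s ≠ 0 := fun h => hsq (by rw [h, zero_pow hq.pos.ne'])
  have hsI : IsIntegral F s := IsIntegral.of_finite F s
  have hdeg : (minpoly F s).natDegree = 3 := by
    have h := minpoly.degree_dvd hsI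
    rw [hfr] at h
    rcases (Nat.dvd_prime Nat.prime_three).1 h with h | h
    · obtain ⟨c, hc⟩ := minpoly.natDegree_eq_one_iff.1 h
      exact absurd (by rw [← hc]; exact pow_q_FF hq hK c) hsq
    · exact h
  have hli : LinearIndependent F ![(1 : K), s, s⁻¹] := by
    rw [Fintype.linearIndependent_iff]
    intro g hg
    simp only [Fin.sum_univ_three, Matrix.cons_val_zero, Matrix.cons_val_one, Matrix.head_cons,
      Matrix.cons_val_two, Matrix.tail_cons, Algebra.smul_def] at hg
    open Polynomial in
    have hp : (C (g 1) * X ^ 2 + C (g 0) * X + C (g 2) : F[X]) = 0 := by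
      by_contra hne
      have hd := minpoly.degree_le_of_ne_zero F s hne (by
        simp only [map_add, map_mul, aeval_C, map_pow, aeval_X]
        have : s * (algebraMap F K (g 0) * 1 + algebraMap F K (g 1) * s + algebraMap F K (g 2) * s⁻¹) = 0 := by
          rw [hg, mul_zero]
        rw [mul_add, mul_add, mul_left_comm s (algebraMap F K (g 2)), mul_inv_cancel₀ hs0, mul_one] at this
        linear_combination this)
      rw [Polynomial.degree_eq_natDegree (minpoly.ne_zero hsI), hdeg] at hd
      exact absurd (hd.trans (Polynomial.degree_quadratic_le)) (by decide)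
    intro i
    fin_cases i
    · simpa [Polynomial.coeff_C, Polynomial.coeff_X] using congrArg (fun P => Polynomial.coeff P 1) hp
    · simpa [Polynomial.coeff_C, Polynomial.coeff_X] using congrArg (fun P => Polynomial.coeff P 2) hp
    · simpa [Polynomial.coeff_C, Polynomial.coeff_X] using congrArg (fun P => Polynomial.coeff P 0) hp
  have hspan := hli.span_eq_top_of_card_eq_finrank (by simp [hfr])
  have hmem : t ∈ Submodule.span F (Set.range ![(1 : K), s, s⁻¹]) := by rw [hspan]; trivial
  rw [Submodule.mem_span_range_iff_exists_fun] at hmem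
  obtain ⟨c, rfl⟩ := hmem
  simp only [Fin.sum_univ_three, Matrix.cons_val_zero, Matrix.cons_val_one, Matrix.head_cons,
    Matrix.cons_val_two, Matrix.tail_cons, Algebra.smul_def]
  have hc : ∀ i, (algebraMap F K (c i)) ^ q = algebraMap F K (c i) := fun i => pow_q_FF hq hK (c i)
  exact hadd _ (hadd _ (hsc _ (hc 0) _ h1) _ (hsc _ (hc 1) _ hs)) _ (hsc _ (hc 2) _ (hinv _ hs))

end Cfsg.Agent.ChevTw.D4Max
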