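import Cfsg.Agent.ChevTw.D4Max.Short
import Cfsg.Agent.ChevTw.D4Torus.Centralizer

/-!
Long root elements of ³D₄(q) next to those of G₂(q) (owner: helper86).
-/

set_option autoImplicit false
set_option linter.unusedSectionVars false

namespace Cfsg.Agent.ChevTw.D4Max

open Cfsg.Lie Cfsg.Agent.ChevGrp Cfsg.Agent.ChevTw Cfsg.Agent.ChevTw.D4Torus

variable {K : Type*} [Field K] [Fintype K] {q : ℕ} (hq : IsPrimePow q) (hK : Fintype.card K = q ^ 3)

/-- A long root element of the fixed group. -/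
def MLong (y : GL chevD4.Idx K) : Prop :=
  ∃ m ∈ twistedD4 K q, frG hq hK m = m ∧ ∃ s : K, s ≠ 0 ∧ s ^ q = s ∧ y = m * xGL chevD4 K 23 s * m⁻¹

/-- A long root element of ³D₄(q). -/
def GLong (y : GL chevD4.Idx K) : Prop :=
  ∃ g ∈ twistedD4 K q, ∃ s : K, s ≠ 0 ∧ s ^ q = s ∧ y = g * xGL chevD4 K 23 s * g⁻¹

variable {hq hK}

theorem MLong.gLong {y : GL chevD4.Idx K} (h : MLong hq hK y) : GLong (q := q) y := by
  obtain ⟨m, hm, -, s, hs⟩ := h
  exact ⟨m, hm, s, hs⟩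

theorem MLong.fixed {y : GL chevD4.Idx K} (h : MLong hq hK y) :
    y ∈ twistedD4 K q ∧ frG hq hK y = y := by
  obtain ⟨m, hm, hf, s, -, hs, rfl⟩ := h
  refine ⟨mul_mem (mul_mem hm (long_mem hq hK (by simp) hs)) (inv_mem hm), ?_⟩
  rw [map_mul, map_mul, map_inv, hf, long_fix hq hK hs]

theorem MLong.conj {y n : GL chevD4.Idx K} (h : MLong hq hK y) (hn : n ∈ twistedD4 K q)
    (hnf : frG hq hK n = n) : MLong hq hK (n * y * n⁻¹) := by
  obtain ⟨m, hm, hf, s, h1, h2, rfl⟩ := h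
  exact ⟨n * m, mul_mem hn hm, by rw [map_mul, hnf, hf], s, h1, h2, by group⟩

theorem GLong.conj {y n : GL chevD4.Idx K} (h : GLong (q := q) y) (hn : n ∈ twistedD4 K q) :
    GLong (q := q) (n * y * n⁻¹) := by
  obtain ⟨m, hm, s, h1, h2, rfl⟩ := h
  exact ⟨n * m, mul_mem hn hm, s, h1, h2, by group⟩

theorem MLong.root (hq : IsPrimePow q) (hK : Fintype.card K = q ^ 3) {r : ℕ}
    (hr : r ∈ [14, 22, 23, 0, 1, 9]) {c : K} (hc : c ^ q = c) (hc0 : c ≠ 0) :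
    MLong hq hK (xGL chevD4 K r c) := by
  have back : ∀ (n : GL chevD4.Idx K), n ∈ twistedD4 K q → frG hq hK n = n → ∀ r r' : ℕ,
      (∃ η : ℤ, (η = 1 ∨ η = -1) ∧ ∀ t : K, n * xGL chevD4 K r t * n⁻¹ = xGL chevD4 K r' ((η : K) * t)) →
      (∀ c : K, c ^ q = c → c ≠ 0 → MLong hq hK (xGL chevD4 K r' c)) →
      ∀ c : K, c ^ q = c → c ≠ 0 → MLong hq hK (xGL chevD4 K r c) := by
    rintro n hn hnf r r' ⟨η, hη, e⟩ hr' c hc hc0
    have h := (hr' ((η : K) * c) (by rw [mul_pow, intCast_pow_q hq hK, hc])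
      (mul_ne_zero (cast_sign_ne hη) hc0)).conj (inv_mem hn) (by rw [map_inv, hnf])
    rw [← e, inv_inv] at h
    simpa [mul_assoc] using h
  have fwd : ∀ (n : GL chevD4.Idx K), n ∈ twistedD4 K q → frG hq hK n = n → ∀ r r' : ℕ,
      (∃ η : ℤ, (η = 1 ∨ η = -1) ∧ ∀ t : K, n * xGL chevD4 K r t * n⁻¹ = xGL chevD4 K r' ((η : K) * t)) →
      (∀ c : K, c ^ q = c → c ≠ 0 → MLong hq hK (xGL chevD4 K r c)) →
      ∀ c : K, c ^ q = c → c ≠ 0 → MLong hq hK (xGL chevD4 K r' c) := by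
    rintro n hn hnf r r' ⟨η, hη, e⟩ hr' c hc hc0
    have h := (hr' ((η : K) * c) (by rw [mul_pow, intCast_pow_q hq hK, hc])
      (mul_ne_zero (cast_sign_ne hη) hc0)).conj hn hnf
    rwa [e, ← mul_assoc, sign_mul_self hη, one_mul] at h
  obtain ⟨w14, -, -, w9, -, -, -, -, -, -, -, -, b22, -, -, -, b14, b1⟩ := wA_facts
  have nB := D4Max.nb_mem (K := K) hq hK
  have fB := frG_nb (K := K) hq hK
  have nA := D4Max.na_mem (K := K) hq hK
  have fA := frG_na (K := K) hq hK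
  have h23 : ∀ c : K, c ^ q = c → c ≠ 0 → MLong hq hK (xGL chevD4 K 23 c) := fun c hc hc0 =>
    ⟨1, one_mem _, map_one _, c, hc0, hc, by simp⟩
  have h22 := back _ nB fB 22 23 (b22 ▸ nb_conj (s := 22) (by omega)) h23
  have h14 := back _ nA fA 14 22 (w14 ▸ na_conj (s := 14) (by omega)) h22
  have h9 := fwd _ nB fB 14 9 (b14 ▸ nb_conj (s := 14) (by omega)) h14
  have h1 := fwd _ nA fA 9 1 (w9 ▸ na_conj (s := 9) (by omega)) h9
  have h0 := fwd _ nB fB 1 0 (b1 ▸ nb_conj (s := 1) (by omega)) h1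
  simp only [List.mem_cons, List.not_mem_nil, or_false] at hr
  rcases hr with rfl | rfl | rfl | rfl | rfl | rfl
  exacts [h14 c hc hc0, h22 c hc hc0, h23 c hc hc0, h0 c hc hc0, h1 c hc hc0, h9 c hc hc0]

theorem MLong.x22_x23 (hq : IsPrimePow q) (hK : Fintype.card K = q ^ 3) {c e : K} (hc : c ^ q = c)
    (hc0 : c ≠ 0) (he : e ^ q = e) : MLong hq hK (xGL chevD4 K 22 c * xGL chevD4 K 23 e) := by
  obtain ⟨t1, t2, t3⟩ : chevD4.commTerms 14 22 = [(23, 1, 1, 1)] ∧ chevD4.commTerms 14 23 = [] ∧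
      chevD4.neg 14 = 9 := by decide +kernel
  have hb : (e / c) ^ q = e / c := by rw [div_pow, he, hc]
  have h := (MLong.root hq hK (r := 22) (by simp) hc hc0).conj
    (n := xGL chevD4 K 14 (e / c)) (long_mem hq hK (by simp) hb) (long_fix hq hK hb)
  rw [conj_x (by omega) (by omega) (by omega) (by omega) t1 (by omega) (by omega) (by omega) t2, Int.cast_one,
    one_mul, div_mul_cancel₀ e hc0] at h
  exact h

theorem x23_central {u : GL chevD4.Idx K} (hu : u ∈ (sysD4 K).Ubar) (a : K) :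
    Commute u (xGL chevD4 K 23 a) := by
  have tb : ∀ r < chevD4.nroots, chevD4.IsPosRoot r → 23 ≠ chevD4.neg r ∧ chevD4.commTerms r 23 = [] := by
    decide +kernel
  refine Subgroup.closure_induction (p := fun u _ => Commute u (xGL chevD4 K 23 a)) ?_ ?_ ?_ ?_ hu
  · rintro _ ⟨r, hr, t, rfl⟩
    obtain ⟨h1, h2⟩ := tb r hr.1 hr
    exact mul_inv_eq_iff_eq_mul.1 (conj_x_none (show r < 24 from hr.1) (by omega) h1 h2 t a)
  · exact Commute.one_left _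
  · exact fun _ _ _ _ h1 h2 => h1.mul_left h2
  · exact fun _ _ h => h.inv_left

/-- Conjugation by a subgroup of the positive unipotent group moves `x₂₂` and `x₁₄` only by `x₂₃`. -/
theorem conj_mod23 {A : Set ℕ} (hA : ∀ r ∈ A, chevD4.IsPosRoot r) {s : ℕ} {c : K} (hs : s < 24)
    (hsA : ∀ r ∈ A, s ≠ chevD4.neg r ∧ (chevD4.commTerms r s = [] ∨
      ((chevD4.commTerms r s = [(23, 1, 1, 1)] ∨ chevD4.commTerms r s = [(23, -1, 1, 1)]) ∧
        s ≠ r ∧ 23 ≠ r ∧ 23 ≠ chevD4.neg r ∧ chevD4.commTerms r 23 = [])))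
    {u : GL chevD4.Idx K} (hu : u ∈ (sysD4 K).US A) :
    ∃ e : K, u * xGL chevD4 K s c * u⁻¹ = xGL chevD4 K s c * xGL chevD4 K 23 e := by
  have hle : (sysD4 K).US A ≤ (sysD4 K).Ubar := (sysD4 K).US_mono hA
  have x23add : ∀ a b : K, xGL chevD4 K 23 a * xGL chevD4 K 23 b = xGL chevD4 K 23 (a + b) :=
    (sysD4 K).x_add 23 (by decide)
  refine Subgroup.closure_induction
    (p := fun u _ => ∃ e : K, u * xGL chevD4 K s c * u⁻¹ = xGL chevD4 K s c * xGL chevD4 K 23 e) ?_ ?_ ?_ ?_ hu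
  · rintro _ ⟨r, hr, t, rfl⟩
    obtain ⟨h2, h⟩ := hsA r hr
    have hlt : r < 24 := (hA r hr).1
    rcases h with h | ⟨h3, h1, hk1, hk2, h4⟩
    · refine ⟨0, ?_⟩
      have : xGL chevD4 K 23 (0 : K) = 1 := (sysD4 K).x_zero (by decide)
      rw [this, mul_one]
      exact conj_x_none hlt hs h2 h t c
    · rcases h3 with h3 | h3 <;> exact ⟨_, conj_x hlt hs h1 h2 h3 (by omega) hk1 hk2 h4 t c⟩
  · refine ⟨0, ?_⟩
    have : xGL chevD4 K 23 (0 : K) = 1 := (sysD4 K).x_zero (by decide)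
    simp [this]
  · rintro a b ha _ ⟨e, he⟩ ⟨f, hf⟩
    refine ⟨e + f, ?_⟩
    calc a * b * xGL chevD4 K s c * (a * b)⁻¹ = a * (b * xGL chevD4 K s c * b⁻¹) * a⁻¹ := by group
      _ = (a * xGL chevD4 K s c * a⁻¹) * (a * xGL chevD4 K 23 f * a⁻¹) := by rw [hf]; group
      _ = _ := by
        rw [he, mul_inv_eq_iff_eq_mul.2 (x23_central (hle ha) f).eq, mul_assoc, x23add]
  · rintro a ha ⟨e, he⟩
    refine ⟨-e, ?_⟩
    have h0 : xGL chevD4 K 23 (-e) = (xGL chevD4 K 23 e)⁻¹ := ((sysD4 K).x_inv (by decide) e).symm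
    have hc := mul_inv_eq_iff_eq_mul.2 (x23_central (inv_mem (hle ha)) e).eq
    rw [inv_inv] at hc ⊢
    rw [h0, eq_mul_inv_iff_mul_eq]
    calc a⁻¹ * xGL chevD4 K s c * a * xGL chevD4 K 23 e
        = a⁻¹ * xGL chevD4 K s c * a * (a⁻¹ * xGL chevD4 K 23 e * a) := by rw [hc]
      _ = a⁻¹ * (xGL chevD4 K s c * xGL chevD4 K 23 e) * a := by group
      _ = a⁻¹ * (a * xGL chevD4 K s c * a⁻¹) * a := by rw [← he]
      _ = _ := by group

theorem pos_range : ∀ r < chevD4.nroots, chevD4.IsPosRoot r → r ∈ List.range' 12 12 := by decide +kernel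

theorem tbl22' : ∀ r ∈ List.range' 12 12, 22 ≠ chevD4.neg r ∧ (chevD4.commTerms r 22 = [] ∨
    ((chevD4.commTerms r 22 = [(23, 1, 1, 1)] ∨ chevD4.commTerms r 22 = [(23, -1, 1, 1)]) ∧
      22 ≠ r ∧ 23 ≠ r ∧ 23 ≠ chevD4.neg r ∧ chevD4.commTerms r 23 = [])) := by decide +kernel

theorem tbl22 : ∀ r, chevD4.IsPosRoot r → 22 ≠ chevD4.neg r ∧ (chevD4.commTerms r 22 = [] ∨
    ((chevD4.commTerms r 22 = [(23, 1, 1, 1)] ∨ chevD4.commTerms r 22 = [(23, -1, 1, 1)]) ∧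
      22 ≠ r ∧ 23 ≠ r ∧ 23 ≠ chevD4.neg r ∧ chevD4.commTerms r 23 = [])) :=
  fun r hr => tbl22' r (pos_range r hr.1 hr)

theorem tbl14' : ∀ r ∈ List.range' 12 12, r ∈ [18, 13, 12] ∨ (14 ≠ chevD4.neg r ∧ (chevD4.commTerms r 14 = [] ∨
    ((chevD4.commTerms r 14 = [(23, 1, 1, 1)] ∨ chevD4.commTerms r 14 = [(23, -1, 1, 1)]) ∧
      14 ≠ r ∧ 23 ≠ r ∧ 23 ≠ chevD4.neg r ∧ chevD4.commTerms r 23 = []))) := by decide +kernel

theorem tbl14 : ∀ r, chevD4.IsPosRoot r → r ∉ [18, 13, 12] →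
    14 ≠ chevD4.neg r ∧ (chevD4.commTerms r 14 = [] ∨
    ((chevD4.commTerms r 14 = [(23, 1, 1, 1)] ∨ chevD4.commTerms r 14 = [(23, -1, 1, 1)]) ∧
      14 ≠ r ∧ 23 ≠ r ∧ 23 ≠ chevD4.neg r ∧ chevD4.commTerms r 23 = [])) :=
  fun r hr hn => (tbl14' r (pos_range r hr.1 hr)).resolve_left hn

theorem tblSplit' : (∀ r ∈ List.range' 12 12, r ∈ [18, 13, 12] ∨
      (twD4.root r ∈ List.range' 12 12 ∧ twD4.root r ∉ [18, 13, 12])) ∧
    (∀ r ∈ [18, 13, 12], r ∈ List.range' 12 12 ∧ twD4.root r ∈ [18, 13, 12]) ∧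
    (∀ r ∈ List.range' 12 12, ∀ s ∈ List.range' 12 12, s = r ∨
      ∀ c ∈ chevD4.commTerms r s, c.1 ∉ [18, 13, 12]) := by
  refine ⟨?_, ?_, ?_⟩ <;> decide +kernel

theorem range_pos : ∀ r ∈ List.range' 12 12, chevD4.IsPosRoot r := by decide +kernel

theorem tblSplit : (∀ r, chevD4.IsPosRoot r → r ∉ [18, 13, 12] →
      chevD4.IsPosRoot (twD4.root r) ∧ twD4.root r ∉ [18, 13, 12]) ∧
    (∀ r ∈ [18, 13, 12], chevD4.IsPosRoot r ∧ twD4.root r ∈ [18, 13, 12]) ∧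
    (∀ r s, chevD4.IsPosRoot r → chevD4.IsPosRoot s → s ≠ r →
      ∀ c ∈ chevD4.commTerms r s, c.1 ∉ [18, 13, 12]) :=
  ⟨fun r hr hn => ⟨range_pos _ ((tblSplit'.1 r (pos_range r hr.1 hr)).resolve_left hn).1,
      ((tblSplit'.1 r (pos_range r hr.1 hr)).resolve_left hn).2⟩,
    fun r hr => ⟨range_pos _ (tblSplit'.2.1 r hr).1, (tblSplit'.2.1 r hr).2⟩,
    fun r s hr hs hne => (tblSplit'.2.2 r (pos_range r hr.1 hr) s (pos_range s hs.1 hs)).resolve_left hne⟩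

/-- The `α`-part of a fixed element of the positive unipotent group. -/
theorem alpha_split (hq : IsPrimePow q) (hK : Fintype.card K = q ^ 3) {u : GL chevD4.Idx K}
    (hu : u ∈ (sysD4 K).Ubar) (hG : u ∈ twistedD4 K q) :
    ∃ t : K, ∃ a ∈ (sysD4 K).US {r | chevD4.IsPosRoot r ∧ r ∉ [18, 13, 12]}, u = Y1 q t * a := by
  set S := sysD4 K
  set T := twistD4 hq hK
  have hR := rootD4 K
  obtain ⟨tA, tB, tC⟩ := tblSplit
  set B : Set ℕ := {r | chevD4.IsPosRoot r ∧ r ∉ [18, 13, 12]}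
  set A : Set ℕ := {18, 13, 12}
  have hA : UClosed chevD4 (lenD4 K) (htHom chevD4) A := by
    have := triple_closed (K := K) (T := [18, 13, 12]) (by simp)
    convert this using 1
    ext r; simp [A]
  have hB : UClosed chevD4 (lenD4 K) (htHom chevD4) B :=
    hR.posSet_closed.subset_closed (fun r h => h.1) fun r hr s hs hne c hc =>
      ⟨hR.posSet_closed.closed r hr.1 s hs.1 hne c hc, tC r s hr.1 hs.1 hne c hc⟩
  have hAp : A ⊆ posSet chevD4 := fun r hr => (tB r (by simpa [A] using hr)).1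
  have hcov : A ∪ B = posSet chevD4 := by
    ext r
    refine ⟨fun h => h.elim (fun h => hAp h) fun h => h.1, fun h => ?_⟩
    by_cases hr : r ∈ [18, 13, 12]
    · exact Or.inl (by simpa [A] using hr)
    · exact Or.inr ⟨h, hr⟩
  have hdis : Disjoint A B := Set.disjoint_left.2 fun r h h' => h'.2 (by simpa [A] using h)
  obtain ⟨b, hb, a, ha, rfl⟩ := S.US_eq_mul hR hR.posSet_closed hA hB hcov hdis hu
  have hbU : b ∈ S.Ubar := S.US_mono hAp hb
  have haU : a ∈ S.Ubar := S.US_mono (fun r h => h.1) ha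
  have hUG : S.Ubar ≤ S.Gbar := Twist.US_le_Gbar fun _ h => h.1
  have hf := sig_fixed hq hK hG
  rw [T.sig_mul _ (hUG hbU) _ (hUG haU)] at hf
  have hb' : T.sig b ∈ S.US A :=
    T.sig_US (fun r h => hA.lt r h) (fun r hr => by
      show twD4.root r ∈ A
      simpa [A] using (tB r (by simpa [A] using hr)).2) hb
  have ha' : T.sig a ∈ S.US B :=
    T.sig_US (fun r h => hB.lt r h) (fun r hr => tA r hr.1 hr.2) ha
  have e : b⁻¹ * T.sig b = a * (T.sig a)⁻¹ := by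
    rw [eq_mul_inv_iff_mul_eq, mul_assoc, hf, inv_mul_cancel_left]
  have h1 : b⁻¹ * T.sig b ∈ S.US A ⊓ S.US B :=
    Subgroup.mem_inf.2 ⟨mul_mem (inv_mem hb) hb', e ▸ mul_mem ha (inv_mem ha')⟩
  rw [S.US_inf hR hR.posSet_closed hA hB hAp (fun r h => h.1), hdis.inter_eq] at h1
  have h2 : T.sig b = b := by
    simp [Sys.US] at h1
    exact (inv_mul_eq_one.1 h1).symm
  obtain ⟨f, hf'⟩ := S.exists_coef hR hA (L := [18, 13, 12]) ⟨by simp, fun r => by simp [A]⟩ hb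
  have e3 : b = xGL chevD4 K 18 (f 18) * xGL chevD4 K 13 (f 13) * xGL chevD4 K 12 (f 12) := by
    rw [hf']
    simp [Sys.P, mul_assoc]
    rfl
  obtain ⟨r1, r2, r3, s1, s2⟩ : twD4.root 18 = 13 ∧ twD4.root 13 = 12 ∧ twD4.root 12 = 18 ∧
      symD4.sgn 18 = 1 ∧ symD4.sgn 13 = 1 := by decide +kernel
  obtain ⟨h13, h12⟩ := fixed_triple hq hK (by simp) hA (by simp) r1 r2 r3 (by rw [← e3]; exact h2)
  rw [s1, Int.cast_one, one_mul] at h13
  rw [s2, Int.cast_one, one_mul, h13, ← pow_mul, ← pow_two] at h12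
  exact ⟨f 18, a, ha, by rw [e3, h13, h12]; rfl⟩

theorem beta_shape (hq : IsPrimePow q) (hK : Fintype.card K = q ^ 3) {u : GL chevD4.Idx K}
    (hu : u ∈ (sysD4 K).Ubar) (hG : u ∈ twistedD4 K q) {c : K} (hc : c ^ q = c) :
    ∃ t e : K, e ^ q = e ∧
      u * xGL chevD4 K 14 c * u⁻¹ = Y1 q t * xGL chevD4 K 14 c * (Y1 q t)⁻¹ * xGL chevD4 K 23 e := by
  obtain ⟨t, a, ha, rfl⟩ := alpha_split hq hK hu hG
  obtain ⟨e, he⟩ := conj_mod23 (K := K) (c := c) (s := 14) (fun r hr => hr.1) (by omega)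
    (fun r hr => tbl14 r hr.1 hr.2) ha
  have e1 : Y1 q t * a * xGL chevD4 K 14 c * (Y1 q t * a)⁻¹ =
      Y1 q t * xGL chevD4 K 14 c * (Y1 q t)⁻¹ * xGL chevD4 K 23 e := by
    calc _ = Y1 q t * (a * xGL chevD4 K 14 c * a⁻¹) * (Y1 q t)⁻¹ := by group
      _ = Y1 q t * xGL chevD4 K 14 c * (xGL chevD4 K 23 e * (Y1 q t)⁻¹) := by rw [he]; group
      _ = _ := by rw [← ((x23_central (Y1_mem_Ubar t) e).inv_left).eq]; group
  refine ⟨t, e, ?_, e1⟩
  refine fixed_long hq hK (r := 23) (by simp) (sig_fixed hq hK ?_)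
  have h14 := long_mem hq hK (show 14 ∈ [14, 22, 23, 0, 1, 9] by simp) hc
  have := mul_mem (inv_mem (mul_mem (mul_mem (Y1_mem (q := q) t) h14) (inv_mem (Y1_mem t))))
    (mul_mem (mul_mem hG h14) (inv_mem hG))
  rwa [e1, inv_mul_cancel_left] at this

theorem x22_shape (hq : IsPrimePow q) (hK : Fintype.card K = q ^ 3) {u : GL chevD4.Idx K}
    (hu : u ∈ (sysD4 K).Ubar) (hG : u ∈ twistedD4 K q) {c : K} (hc : c ^ q = c) (hc0 : c ≠ 0) :
    MLong hq hK (u * xGL chevD4 K 22 c * u⁻¹) := by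
  obtain ⟨e, he⟩ := conj_mod23 (K := K) (c := c) (s := 22) (A := posSet chevD4) (fun r hr => hr) (by omega)
    (fun r hr => tbl22 r hr) hu
  rw [he]
  refine MLong.x22_x23 hq hK hc hc0 (fixed_long hq hK (r := 23) (by simp) (sig_fixed hq hK ?_))
  have h22 := long_mem hq hK (show 22 ∈ [14, 22, 23, 0, 1, 9] by simp) hc
  have := mul_mem (inv_mem h22) (mul_mem (mul_mem hG h22) (inv_mem hG))
  rwa [he, inv_mul_cancel_left] at this

theorem rho_fixed : ∀ r < chevD4.nroots, twD4.root r = r → r ∈ [14, 22, 23, 0, 1, 9] := by decide +kernel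

theorem GLong.normal_form (hq : IsPrimePow q) (hK : Fintype.card K = q ^ 3) {y : GL chevD4.Idx K}
    (h : GLong (q := q) y) : ∃ u ∈ (sysD4 K).Ubar, u ∈ twistedD4 K q ∧ ∃ r ∈ [14, 22, 23, 0, 1, 9],
      ∃ c : K, c ^ q = c ∧ c ≠ 0 ∧ y = u * xGL chevD4 K r c * u⁻¹ := by
  obtain ⟨g, hg, s, hs0, hs, rfl⟩ := h
  set S := sysD4 K
  set T := twistD4 hq hK
  have hS := rulesD4 K
  have hR := rootD4 K
  obtain ⟨b, hb, w, -, v, hv, rfl⟩ := S.mem_NF hS hR (mem_Gbar hq hK hg)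
  obtain ⟨hwc, -, k, hk, -, hbk⟩ := T.fixed_bruhat hS hR hb hv (sig_fixed hq hK hg)
  obtain ⟨u, hu, h, hh, rfl⟩ := (S.mem_Bbar hS hR).1 hb
  have huG : u ∈ S.Gbar := S.Bbar_le_Gbar hS hR (S.Ubar_le_Bbar hu)
  have huf : T.sig u = u := by
    rw [T.sig_mul _ huG _ (S.Bbar_le_Gbar hS hR (S.Hbar_le_Bbar hh)), mul_assoc] at hbk
    exact ((S.Bbar_decomp_unique hS hR hu (T.sig_Ubar hu) hh
      (mul_mem (T.sig_Hbar hS hR hh) hk) hbk).1).symm
  obtain ⟨a, ha, hwa⟩ := S.conjP_nW hS hR w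
  obtain ⟨d, hd, hhd⟩ := S.conjP_Hbar hS hR hh
  have h23 : (23 : ℕ) < chevD4.nroots := by decide
  have hlt := hR.act_lt w h23
  set r := act chevD4 w 23
  set c := d r * (a 23 * s)
  have hu' := mem_of_fixed hq hK hu huf
  have hr : r ∈ [14, 22, 23, 0, 1, 9] := rho_fixed r hlt (by
    have h1 := hwc 23 h23
    change act chevD4 w (twD4.root 23) = twD4.root r at h1
    rw [(long_table 23 (by simp)).2.1] at h1
    exact h1.symm)
  have e : u * h * S.nW w * v * xGL chevD4 K 23 s * (u * h * S.nW w * v)⁻¹ =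
      u * xGL chevD4 K r c * u⁻¹ := by
    have hvc : Commute v (xGL chevD4 K 23 s) := x23_central (S.US_mono (fun r hr => hr.1) hv) s
    calc u * h * S.nW w * v * xGL chevD4 K 23 s * (u * h * S.nW w * v)⁻¹
        = u * (h * (S.nW w * (v * xGL chevD4 K 23 s * v⁻¹) * (S.nW w)⁻¹) * h⁻¹) * u⁻¹ := by group
      _ = u * (h * S.x r (a 23 * s) * h⁻¹) * u⁻¹ := by
        rw [mul_inv_eq_iff_eq_mul.2 hvc.eq]
        exact congrArg (fun z => u * (h * z * h⁻¹) * u⁻¹) (hwa 23 h23 s)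
      _ = _ := by rw [hhd r hlt, act_nil]; rfl
  refine ⟨u, hu, hu', r, hr, c, ?_, ?_, e⟩
  · refine fixed_long hq hK hr (sig_fixed hq hK ?_)
    have := mul_mem (mul_mem (inv_mem hu') (mul_mem (mul_mem hg
      (long_mem hq hK (show 23 ∈ [14, 22, 23, 0, 1, 9] by simp) hs)) (inv_mem hg))) hu'
    rw [e] at this
    simpa [mul_assoc] using this
  · exact mul_ne_zero (right_ne_zero_of_mul_eq_one (hd r hlt))
      (mul_ne_zero (right_ne_zero_of_mul_eq_one (ha 23 h23)) hs0)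

end Cfsg.Agent.ChevTw.D4Max
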