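import Cfsg.Agent.ChevTw.D4Max.Chain
import Cfsg.Agent.ChevTw.D4Max.Cen

/-!
G₂(q) is maximal in ³D₄(q) (owner: helper86).
-/

set_option autoImplicit false
set_option linter.unusedSectionVars false

namespace Cfsg.Agent.ChevTw.D4Max

open Cfsg.Lie Cfsg.Agent.ChevGrp Cfsg.Agent.ChevTw Cfsg.Agent.ChevTw.D4Torus

variable {K : Type*} [Field K] [Fintype K] {q : ℕ}

theorem exists_not_fixed (hq : IsPrimePow q) (hK : Fintype.card K = q ^ 3) : ∃ t : K, t ^ q ≠ t := by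
  by_contra hcon
  push Not at hcon
  have e : FF hq hK = ⊤ := eq_top_iff.2 fun t _ => (mem_FF hq hK).2 (hcon t)
  have h := card_FF hq hK
  rw [e, Nat.card_congr Subfield.topEquiv.toEquiv, Nat.card_eq_fintype_card, hK] at h
  have := Nat.pow_lt_pow_right hq.one_lt (show 1 < 3 by norm_num)
  rw [pow_one] at this
  omega

theorem frG_maps (hq : IsPrimePow q) (hK : Fintype.card K = q ^ 3) {g : GL chevD4.Idx K}
    (hg : g ∈ twistedD4 K q) : frG hq hK g ∈ twistedD4 K q := by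
  set J := twistedD4 K q ⊓ (twistedD4 K q).comap (frG hq hK)
  have ho : Over hq hK J := ⟨fun g hg hf => ⟨hg, show frG hq hK g ∈ _ by rwa [hf]⟩, inf_le_left⟩
  obtain ⟨s, hs⟩ := exists_not_fixed hq hK
  exact (ho.eq_top_of_short hs ⟨Y1_mem s, show frG hq hK (Y1 q s) ∈ _ by
    rw [frG_Y1]; exact Y1_mem _⟩ hg).2

/-- A proper overgroup consists of fixed elements. -/
theorem Over.fixed {hq : IsPrimePow q} {hK : Fintype.card K = q ^ 3}
    {H : Subgroup (GL chevD4.Idx K)} (ho : Over hq hK H) (hne : ¬ twistedD4 K q ≤ H)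
    {h : GL chevD4.Idx K} (hh : h ∈ H) : frG hq hK h = h := by
  have hG := ho.le hh
  have hc : Cen hq hK (h⁻¹ * frG hq hK h) := by
    refine ⟨mul_mem (inv_mem hG) (frG_maps hq hK hG), fun z hz => ?_⟩
    have hm := ((ho.mlong (hz.gLong.conj hG)
      (mul_mem (mul_mem hh (ho.mlong_mem hz)) (inv_mem hh))).resolve_left hne).fixed.2
    rw [map_mul, map_mul, map_inv, hz.fixed.2] at hm
    refine mul_inv_eq_iff_eq_mul.1 ?_
    calc h⁻¹ * frG hq hK h * z * (h⁻¹ * frG hq hK h)⁻¹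
        = h⁻¹ * (frG hq hK h * z * (frG hq hK h)⁻¹) * h := by group
      _ = z := by rw [hm]; group
  exact (inv_mul_eq_one.1 hc.eq_one).symm

theorem exists_moved (hq : IsPrimePow q) (hK : Fintype.card K = q ^ 3) :
    ∃ g ∈ twistedD4 K q, frG hq hK g ≠ g := by
  obtain ⟨s, hs⟩ := exists_not_fixed hq hK
  refine ⟨Y1 q s, Y1_mem s, fun e => hs ?_⟩
  rw [frG_Y1] at e
  have hR := rootD4 K
  have hA : UClosed chevD4 (lenD4 K) (htHom chevD4) {r | r ∈ [18, 13, 12]} := triple_closed (by simp)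
  let f : K → ℕ → K := fun t r => if r = 18 then t else if r = 13 then t ^ q else t ^ (q ^ 2)
  have eP : ∀ t, Y1 q t = (sysD4 K).P [18, 13, 12] (f t) := fun t => by
    simp [Y1, Sys.P, f, mul_assoc]
    rfl
  rw [eP, eP] at e
  have := (sysD4 K).coef_unique hR hA (L := [18, 13, 12]) ⟨by simp, fun r => Iff.rfl⟩
    (congrArg (sysD4 K).θ e) 18 (by simp)
  simpa [f] using this

theorem subfield_maximal (hq : IsPrimePow q) (hK : Fintype.card K = q ^ 3)
    (M : Subgroup (GL chevD4.Idx K))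
    (hM : ∀ g : GL chevD4.Idx K, g ∈ M ↔ g ∈ twistedD4 K q ∧ frG hq hK g = g) :
    M ≠ twistedD4 K q ∧ ∀ H : Subgroup (GL chevD4.Idx K), M ≤ H → H ≤ twistedD4 K q →
      H = M ∨ H = twistedD4 K q := by
  refine ⟨fun e => ?_, fun H hMH hHG => ?_⟩
  · obtain ⟨g, hg, hne⟩ := exists_moved hq hK
    exact hne ((hM g).1 (e ▸ hg)).2
  have ho : Over hq hK H := ⟨fun g hg hf => hMH ((hM g).2 ⟨hg, hf⟩), hHG⟩
  by_cases h : twistedD4 K q ≤ H
  · exact Or.inr (le_antisymm hHG h)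
  · exact Or.inl (le_antisymm (fun g hg => (hM g).2 ⟨hHG hg, ho.fixed h hg⟩) hMH)

end Cfsg.Agent.ChevTw.D4Max
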