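import Cfsg.Agent.ChevTw.D4Max.Weyl
import Cfsg.Agent.ChevTw.D4Max.Field

/-!
A group over G₂(q) with a short root element outside it is all of ³D₄(q) (owner: helper86).
-/

set_option autoImplicit false
set_option linter.unusedSectionVars false

namespace Cfsg.Agent.ChevTw.D4Max

open Cfsg.Lie Cfsg.Agent.ChevGrp Cfsg.Agent.ChevTw Cfsg.Agent.ChevTw.D4Torus

variable {K : Type*} [Field K] [Fintype K] {q : ℕ} (hq : IsPrimePow q) (hK : Fintype.card K = q ^ 3)

/-- An overgroup of the fixed points of the entrywise Frobenius. -/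
structure Over (H : Subgroup (GL chevD4.Idx K)) : Prop where
  small : ∀ g ∈ twistedD4 K q, frG hq hK g = g → g ∈ H
  le : H ≤ twistedD4 K q

variable {hq hK} {H : Subgroup (GL chevD4.Idx K)}

theorem Y1_add (a b : K) (hq : IsPrimePow q) (hK : Fintype.card K = q ^ 3) :
    Y1 q a * Y1 q b = Y1 q (a + b) := by
  have c1 : ∀ t u : K, Commute (xGL chevD4 K 18 t) (xGL chevD4 K 13 u) :=
    x_commuteD4 (by simp) (by simp) (by omega) (by decide +kernel)
  have c2 : ∀ t u : K, Commute (xGL chevD4 K 18 t) (xGL chevD4 K 12 u) :=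
    x_commuteD4 (by simp) (by simp) (by omega) (by decide +kernel)
  have c3 : ∀ t u : K, Commute (xGL chevD4 K 13 t) (xGL chevD4 K 12 u) :=
    x_commuteD4 (by simp) (by simp) (by omega) (by decide +kernel)
  have e2 : (a + b) ^ (q ^ 2) = a ^ (q ^ 2) + b ^ (q ^ 2) := by
    simp only [pow_two, pow_mul, add_pow_q hq hK]
  have add : ∀ r < 24, ∀ t u : K, xGL chevD4 K r (t + u) = xGL chevD4 K r t * xGL chevD4 K r u :=
    fun r hr t u => ((sysD4 K).x_add r (show r < chevD4.nroots from hr) t u).symm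
  rw [Y1, Y1, Y1, add_pow_q hq hK, e2, add 18 (by omega), add 13 (by omega), add 12 (by omega)]
  calc _ = xGL chevD4 K 18 a * xGL chevD4 K 13 (a ^ q) * (xGL chevD4 K 12 (a ^ (q ^ 2)) *
        xGL chevD4 K 18 b) * xGL chevD4 K 13 (b ^ q) * xGL chevD4 K 12 (b ^ (q ^ 2)) := by group
    _ = xGL chevD4 K 18 a * (xGL chevD4 K 13 (a ^ q) * xGL chevD4 K 18 b) * (xGL chevD4 K 12 (a ^ (q ^ 2)) *
        xGL chevD4 K 13 (b ^ q)) * xGL chevD4 K 12 (b ^ (q ^ 2)) := by rw [← (c2 _ _).eq]; group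
    _ = _ := by rw [← (c1 _ _).eq, ← (c3 _ _).eq]; group

theorem sign_mul_self {η : ℤ} (h : η = 1 ∨ η = -1) : (η : K) * η = 1 := by
  rcases h with rfl | rfl <;> simp

theorem S1_mem (hq : IsPrimePow q) (hK : Fintype.card K = q ^ 3) (u : K) : S1 q u ∈ twistedD4 K q := by
  obtain ⟨η, hη, hb⟩ := nb_Y1 hq hK (K := K)
  rw [← one_mul u, ← sign_mul_self (K := K) hη, mul_assoc, ← hb]
  exact mul_mem (mul_mem (D4Max.nb_mem hq hK) (Y1_mem _)) (inv_mem (D4Max.nb_mem hq hK))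

theorem S2_mem (hq : IsPrimePow q) (hK : Fintype.card K = q ^ 3) (u : K) : S2 q u ∈ twistedD4 K q := by
  obtain ⟨ν, hν, ha⟩ := na_S1 hq hK (K := K)
  rw [← one_mul u, ← sign_mul_self (K := K) hν, mul_assoc, ← ha]
  exact mul_mem (mul_mem (D4Max.na_mem hq hK) (S1_mem hq hK _)) (inv_mem (D4Max.na_mem hq hK))

namespace Over

variable (ho : Over hq hK H)
include ho

theorem nb_mem : nb K ∈ H := ho.small _ (D4Max.nb_mem hq hK) (frG_nb hq hK)

theorem na_mem : na K ∈ H := ho.small _ (D4Max.na_mem hq hK) (frG_na hq hK)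

theorem long {r : ℕ} (hr : r ∈ [14, 22, 23, 0, 1, 9]) {t : K} (ht' : t ^ q = t) :
    xGL chevD4 K r t ∈ H :=
  ho.small _ (long_mem hq hK hr ht') (long_fix hq hK ht')

theorem top {g : GL chevD4.Idx K} (hg : g ∈ NTop K) (hG : g ∈ twistedD4 K q) : g ∈ H :=
  ho.small _ hG (top_fixed_good hq hK hg hG)

theorem eqv_mem {a b : GL chevD4.Idx K} (h : Eqv a b) (ha : a ∈ H) (hb : b ∈ twistedD4 K q) : b ∈ H := by
  have := mul_mem ha (ho.top h (mul_mem (inv_mem (ho.le ha)) hb))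
  simpa using this

theorem S_scale {t : K} (h : Y1 q t ∈ H) {c : K} (hc : c ^ q = c) : Y1 q (c * t) ∈ H := by
  rcases eq_or_ne c 0 with rfl | hc0
  · rw [zero_mul]
    exact ho.small _ (Y1_mem 0) (by rw [frG_Y1, zero_pow hq.pos.ne'])
  set i : Fin chevD4.rank := ⟨1, by decide⟩
  have hS := rulesD4 K
  have hR := rootD4 K
  have tb : chevD4.simple 1 = 14 ∧ chevD4.neg 14 = 9 ∧ chevD4.cartan 1 18 = -1 ∧
      chevD4.cartan 1 13 = -1 ∧ chevD4.cartan 1 12 = -1 := by decide +kernel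
  obtain ⟨e14, e9, k18, k13, k12⟩ := tb
  set g := (sysD4 K).hEl (chevD4.simple i) c⁻¹
  have hf : ∀ u : K, u ^ q = u → (sysD4 K).nEl (chevD4.simple i) u ∈ H := by
    intro u hu
    show (sysD4 K).nEl (chevD4.simple 1) u ∈ H
    rw [Sys.nEl, e14, e9]
    exact mul_mem (mul_mem (ho.long (by simp) hu)
      (ho.long (by simp) (by rw [neg_pow_q hq hK, inv_pow, hu]))) (ho.long (by simp) hu)
  have hg : g ∈ H := mul_mem (hf _ (by rw [inv_pow, hc])) (hf _ (neg_one_pow_q hq hK))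
  have hci : c⁻¹ ≠ 0 := inv_ne_zero hc0
  have e : g * Y1 q t * g⁻¹ = Y1 q (c * t) := by
    have hx := (sysD4 K).conjP_hI hS hR i hci
    rw [Y1, Y1, conj_mul3]
    show ((sysD4 K).hEl _ _ * (sysD4 K).x 18 t * _) * ((sysD4 K).hEl _ _ * (sysD4 K).x 13 _ * _) *
      ((sysD4 K).hEl _ _ * (sysD4 K).x 12 _ * _) = _
    rw [hx 18 (by decide), hx 13 (by decide), hx 12 (by decide)]
    simp only [show ((i : Fin chevD4.rank) : ℕ) = 1 from rfl, k18, k13, k12, zpow_neg_one, inv_inv]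
    have hc2 : c ^ (q ^ 2) = c := by rw [pow_two, pow_mul, hc, hc]
    rw [mul_pow, mul_pow, hc, hc2]
    rfl
  rw [← e]
  exact mul_mem (mul_mem hg h) (inv_mem hg)

theorem Y1_of_sign {η : ℤ} (hη : η = 1 ∨ η = -1) {t : K} (h : Y1 q ((η : K) * t) ∈ H) : Y1 q t ∈ H := by
  have := ho.S_scale h (intCast_pow_q hq hK η)
  rwa [← mul_assoc, sign_mul_self hη, one_mul] at this

theorem S1_iff {t : K} : S1 q t ∈ H ↔ Y1 q t ∈ H := by
  obtain ⟨η, hη, hb⟩ := nb_Y1 hq hK (K := K)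
  have e : nb K * Y1 q ((η : K) * t) * (nb K)⁻¹ = S1 q t := by
    rw [hb, ← mul_assoc, sign_mul_self hη, one_mul]
  constructor
  · intro h
    refine ho.Y1_of_sign hη ?_
    have := mul_mem (mul_mem (inv_mem ho.nb_mem) h) ho.nb_mem
    rw [← e] at this
    simpa [mul_assoc] using this
  · intro h
    rw [← e]
    exact mul_mem (mul_mem ho.nb_mem (ho.S_scale h (intCast_pow_q hq hK η))) (inv_mem ho.nb_mem)

theorem S2_iff {t : K} : S2 q t ∈ H ↔ Y1 q t ∈ H := by
  obtain ⟨η, hη, ha⟩ := na_S1 hq hK (K := K)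
  have e : na K * S1 q ((η : K) * t) * (na K)⁻¹ = S2 q t := by
    rw [ha, ← mul_assoc, sign_mul_self hη, one_mul]
  constructor
  · intro h
    refine ho.Y1_of_sign hη (ho.S1_iff.1 ?_)
    have := mul_mem (mul_mem (inv_mem ho.na_mem) h) ho.na_mem
    rw [← e] at this
    simpa [mul_assoc] using this
  · intro h
    rw [← e]
    exact mul_mem (mul_mem ho.na_mem (ho.S1_iff.2 (ho.S_scale h (intCast_pow_q hq hK η)))) (inv_mem ho.na_mem)

theorem pair_mem {t c : K} (hc : c ^ q = c) (h : Y1 q t * xGL chevD4 K 14 c * (Y1 q t)⁻¹ ∈ H) :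
    S1 q (c * t) * S2 q (c * t ^ q * t ^ (q ^ 2)) ∈ H := by
  have hS : ∀ u : K, S1 q u ∈ twistedD4 K q ∧ S2 q u ∈ twistedD4 K q := fun u =>
    ⟨S1_mem hq hK u, S2_mem hq hK u⟩
  have h14 := ho.long (show 14 ∈ [14, 22, 23, 0, 1, 9] by simp) hc
  have := ho.eqv_mem (Y1_conj_eqv (q := q) hc (pow_q_cube hK)) h
    (mul_mem (long_mem hq hK (by simp) hc) (mul_mem (hS _).1 (hS _).2))
  have := mul_mem (inv_mem h14) this
  simpa using this

theorem inv_mem_A {t : K} (h : Y1 q t ∈ H) : Y1 q t⁻¹ ∈ H := by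
  rcases eq_or_ne t 0 with rfl | ht0
  · simpa using h
  have h14 := ho.long (show 14 ∈ [14, 22, 23, 0, 1, 9] by simp) (t := (1 : K)) (one_pow q)
  have hp := ho.pair_mem (t := t) (c := (1 : K)) (one_pow q) (mul_mem (mul_mem h h14) (inv_mem h))
  rw [one_mul, one_mul] at hp
  have h2 := mul_mem (inv_mem (ho.S1_iff.2 h)) hp
  rw [inv_mul_cancel_left] at h2
  have hN : (t * t ^ q * t ^ (q ^ 2)) ^ q = t * t ^ q * t ^ (q ^ 2) := by
    rw [mul_pow, mul_pow, pow_q_cube hK t, ← pow_mul, ← pow_two]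
    ring
  have := ho.S_scale (ho.S2_iff.1 h2) (c := (t * t ^ q * t ^ (q ^ 2))⁻¹) (by rw [inv_pow, hN])
  convert this using 2
  have h0 : t ^ q ≠ 0 := pow_ne_zero _ ht0
  have h0' : t ^ (q ^ 2) ≠ 0 := pow_ne_zero _ ht0
  field_simp

/-- One element of a short root group outside the small field suffices. -/
theorem eq_top_of_short {s : K} (hs : s ^ q ≠ s) (h : Y1 q s ∈ H) : twistedD4 K q ≤ H := by
  have h1 : Y1 q (1 : K) ∈ H := ho.small _ (Y1_mem 1) (by rw [frG_Y1, one_pow])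
  have all : ∀ t : K, Y1 q t ∈ H := fun t =>
    eq_univ_of_inv hq hK {a : K | Y1 q a ∈ H} h1
      (fun a ha b hb => by
        show Y1 q (a + b) ∈ H
        rw [← Y1_add a b hq hK]
        exact mul_mem ha hb)
      (fun c hc a ha => ho.S_scale ha hc) (fun a ha => ho.inv_mem_A ha) (s := s) h hs t
  obtain ⟨η, hη, ha⟩ := na_Y1 hq hK (K := K)
  rw [twistedD4, ChevalleyDatum.genSubgroup, Subgroup.closure_le]
  rintro g ⟨w, hw, hg⟩
  obtain rfl := eq_word_of_mat (rulesD4 K) hg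
  show _ ∈ H
  rcases hw with ⟨t, ht', r, hr, rfl⟩ | ⟨t, rs, hrs, rfl⟩
  · simp only [d4p2, d4m2, List.mem_cons, List.not_mem_nil, or_false] at hr
    rw [List.map_singleton, List.prod_singleton]
    rcases hr with rfl | rfl <;> exact ho.long (by simp) ht'
  · simp only [d4p1, d4p3, d4p4, d4m1, d4m3, d4m4, List.mem_cons, List.not_mem_nil, or_false] at hrs
    rcases hrs with rfl | rfl
    · simpa [Y1, mul_assoc] using all t
    · have e := ha ((η : K) * t)
      rw [← mul_assoc, sign_mul_self hη, one_mul] at e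
      simp only [wordsD4, List.getD_cons_succ, List.getD_cons_zero] at e
      rw [← e]
      exact mul_mem (mul_mem ho.na_mem (all _)) (inv_mem ho.na_mem)

/-- A moved long root element next to `x₂₃` forces the whole group. -/
theorem eq_top_of_beta {t c : K} (hc : c ^ q = c) (hc0 : c ≠ 0) (ht' : t ^ q ≠ t)
    (h : Y1 q t * xGL chevD4 K 14 c * (Y1 q t)⁻¹ ∈ H) : twistedD4 K q ≤ H := by
  have hz := ho.pair_mem hc h
  set s := c * t
  have hs : s ^ q ≠ s := by
    show (c * t) ^ q ≠ c * t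
    rw [mul_pow, hc]
    exact fun e => ht' (mul_left_cancel₀ hc0 e)
  set z := S1 q s * S2 q (c * t ^ q * t ^ (q ^ 2))
  have hg : Y1 q (1 : K) ∈ H := ho.small _ (Y1_mem 1) (by rw [frG_Y1, one_pow])
  set u := s ^ q + s ^ (q ^ 2) with hudef
  have hS2 : S2 q u ∈ twistedD4 K q := S2_mem hq hK u
  have key := ho.eqv_mem (Y1_one_S (add_pow_q hq hK) (pow_q_cube hK) s _)
    (mul_mem (mul_mem hg hz) (inv_mem hg)) (mul_mem (ho.le hz) hS2)
  have h2 : S2 q u ∈ H := by
    have := mul_mem (inv_mem hz) key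
    rwa [inv_mul_cancel_left] at this
  refine ho.eq_top_of_short (s := u) (fun e => hs ?_) (ho.S2_iff.1 h2)
  rw [hudef, add_pow_q hq hK, pow_q_cube hK s, ← pow_mul, ← pow_two, add_comm] at e
  exact (add_right_cancel e).symm

end Over

end Cfsg.Agent.ChevTw.D4Max
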